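import Cfsg.Agent.Lib.AltM.Code

/-! Certificates for the vanishing of fixed vectors in modules for symmetric groups. -/

set_option autoImplicit false

namespace CfsgLib.AltM

open Equiv Function

def get (T i : ℕ) : ℕ := (T >>> (16 * i)) % 65536

def getc (T i : ℕ) : ℕ := (T >>> (40 * i)) % 1099511627776

def eqc (n a b c d : ℕ) : Bool :=
  (List.range n).all fun i => dig n a (dig n b i) == dig n c (dig n d i)

/-- `H` lists `M` elements of the group generated by `gs`; entry `0` is the identity -/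
def hChk (n : ℕ) (gs : List ℕ) (H M hh : ℕ) : Bool :=
  gs.all (isP n) && weq n [getc H 0] [] && (List.range M).all fun j => j == 0 ||
    (decide (get hh j / 8 < j) && decide (get hh j % 8 < gs.length) &&
      weq n [gs.getD (get hh j % 8) 0, getc H (get hh j / 8)] [getc H j])

/-- `t = (s, T, h)` is the action table of `s` on the coset representatives `G` -/
def tChk (n G D H M : ℕ) (t : ℕ × ℕ × ℕ) : Bool :=
  isP n t.1 && (List.range D).all fun i => decide (get t.2.2 i < M) &&
    eqc n t.1 (getc G i) (getc G (get t.2.1 i)) (getc H (get t.2.2 i))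

def force (m : ℕ) (k : ℕ → ℕ) : ℕ :=
  match m with
  | 0 => k 0
  | m' + 1 => k (m' + 1)

theorem force_eq (m : ℕ) (k : ℕ → ℕ) : force m k = k m := by cases m <;> rfl

def app (D T : ℕ) (k : List ℕ → ℕ) : List ℕ → List ℕ → ℕ
  | [], acc => k acc
  | i :: l, acc => if i < D then force (get T i) fun j => app D T k l (j :: acc) else 0

def bits : List ℕ → ℕ → ℕ
  | [], acc => acc
  | i :: l, acc => force acc fun acc => bits l (acc ^^^ 2 ^ i)

def comb : List ℕ → ℕ → ℕ → ℕ
  | [], _, acc => acc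
  | z :: Z, m, acc => force m fun m => force acc fun acc =>
      comb Z (m / 2) (if m % 2 = 1 then acc ^^^ z else acc)

inductive Step
  | spin (t j : ℕ)
  | rule (x : List ℕ) (l : List (ℕ × ℕ))

def tb (Ts : List (ℕ × ℕ × ℕ)) (t : ℕ) : ℕ × ℕ × ℕ := Ts.getD t (0, 0, 0)

def step (D : ℕ) (Ts : List (ℕ × ℕ × ℕ)) (R : List (List ℕ)) (Z : List (List ℕ)) (Y : List ℕ)
    (k : List ℕ → ℕ) : Step → ℕ
  | .spin t j => if t < Ts.length then app D (tb Ts t).2.1 k (Z.getD j []) [] else 0
  | .rule x l => if (l.map fun a => (tb Ts a.1).1) ∈ R ∧ ∀ a ∈ l, a.1 < Ts.length ∧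
      app D (tb Ts a.1).2.1 (fun y => if bits y (bits x 0) = comb Y a.2 0 then 1 else 0) x [] ≠ 0
      then k x else 0

def run (D : ℕ) (Ts : List (ℕ × ℕ × ℕ)) (R : List (List ℕ)) (m : ℕ) :
    List Step → List (List ℕ) → List ℕ → ℕ
  | [], _, Y => comb Y m 0
  | s :: l, Z, Y => step D Ts R Z Y (fun z => force (bits z 0) fun y =>
      run D Ts R m l (z :: Z) (y :: Y)) s

variable {n : ℕ} [NeZero n] {W : Type*} [AddCommGroup W] [DistribMulAction (Perm (Fin n)) W]

open Classical in
noncomputable def act (n : ℕ) [NeZero n] [DistribMulAction (Perm (Fin n)) W] (c : ℕ) (w : W) :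
    W := if Bijective (tf n c) then pm n c • w else 0

/-- the letters `cs` have no common fixed vector -/
def Z0 (n : ℕ) [NeZero n] (W : Type*) [AddCommGroup W] [DistribMulAction (Perm (Fin n)) W]
    (cs : List ℕ) : Prop := ∀ v : W, (∀ c ∈ cs, pm n c • v = v) → v = 0

theorem act_eq {a b c d : ℕ} {w : W} (h : eqc n a b c d = true) (ha : Bijective (tf n a))
    (hd : Bijective (tf n d)) (hw : pm n d • w = w) : pm n a • act n b w = act n c w := by
  have e : tf n a ∘ tf n b = tf n c ∘ tf n d := tw_eq (u := [a, b]) (v := [c, d]) |>.1 h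
  by_cases hb : Bijective (tf n b)
  · have hc : Bijective (tf n c) := (Bijective.of_comp_iff _ hd).1 (e ▸ ha.comp hb)
    have e' : pm n a * pm n b = pm n c * pm n d := Equiv.ext fun i => by
      simp only [Perm.mul_apply, pm_apply, ha, hb, hc, hd]
      exact congrFun e i
    rw [act, act, if_pos hb, if_pos hc, ← mul_smul, e', mul_smul, hw]
  · rw [act, act, if_neg hb, if_neg fun hc => hb
      ((Bijective.of_comp_iff' ha _).1 (e ▸ hc.comp hd)), smul_zero]

theorem hChk_spec {gs : List ℕ} {H M hh : ℕ} (h : hChk n gs H M hh = true) {j : ℕ} (hj : j < M) :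
    Bijective (tf n (getc H j)) ∧ pm n (getc H j) ∈ gp n gs := by
  simp only [hChk, Bool.and_eq_true, List.all_eq_true, List.mem_range, Bool.or_eq_true,
    beq_iff_eq, decide_eq_true_eq] at h
  obtain ⟨⟨h1, h2⟩, h3⟩ := h
  induction j using Nat.strong_induction_on with
  | _ j ih =>
    rcases h3 j hj with rfl | ⟨⟨h4, h5⟩, h6⟩
    · have e : tf n (getc H 0) = id := tw_eq.1 h2
      have hb : Bijective (tf n (getc H 0)) := e ▸ bijective_id
      refine ⟨hb, ?_⟩
      rw [show pm n (getc H 0) = 1 from Equiv.ext fun i => by rw [pm_apply hb, e]; rfl]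
      exact one_mem _
    · obtain ⟨h7, h8⟩ := ih _ h4 (h4.trans hj)
      have h9 : gs.getD (get hh j % 8) 0 ∈ gs := by
        rw [List.getD_eq_getElem _ _ h5]; exact List.getElem_mem _
      have ha := bij_of (h1 _ h9)
      have e : tf n _ ∘ tf n _ = tf n (getc H j) := tw_eq.1 h6
      have hb : Bijective (tf n (getc H j)) := e ▸ ha.comp h7
      refine ⟨hb, ?_⟩
      rw [show pm n (getc H j) = pm n (gs.getD (get hh j % 8) 0) * pm n (getc H (get hh j / 8))
        from Equiv.ext fun i => by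
          simp only [Perm.mul_apply, pm_apply, ha, hb, h7]; exact (congrFun e i).symm]
      exact mul_mem (mem_gp h9) h8

theorem smul_eq_of_mem {gs : List ℕ} {w : W} (hw : ∀ c ∈ gs, pm n c • w = w)
    {g : Perm (Fin n)} (hg : g ∈ gp n gs) : g • w = w :=
  gp_le (K := MulAction.stabilizer _ w) hw hg

theorem tChk_spec {gs : List ℕ} {G D H M hh : ℕ} (h : hChk n gs H M hh = true) {w : W}
    (hw : ∀ c ∈ gs, pm n c • w = w) {t : ℕ × ℕ × ℕ} (ht : tChk n G D H M t = true) {i : ℕ}
    (hi : i < D) : pm n t.1 • act n (getc G i) w = act n (getc G (get t.2.1 i)) w := by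
  simp only [tChk, Bool.and_eq_true, List.all_eq_true, List.mem_range, decide_eq_true_eq] at ht
  obtain ⟨h1, h2⟩ := hChk_spec h (ht.2 i hi).1
  exact act_eq (ht.2 i hi).2 (bij_of ht.1) h1 (smul_eq_of_mem hw h2)

theorem act_zero {G : ℕ} (h : weq n [getc G 0] [] = true) (w : W) : act n (getc G 0) w = w := by
  have e : tf n (getc G 0) = id := tw_eq.1 h
  have hb : Bijective (tf n (getc G 0)) := e ▸ bijective_id
  rw [act, if_pos hb, show pm n (getc G 0) = 1 from Equiv.ext fun i => by
    rw [pm_apply hb, e]; rfl, one_smul]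

theorem z0_of_ns (h : ∀ K : Subgroup (Perm (Fin n)), ¬ Group.IsSolvable K → ∀ v : W,
    (∀ k ∈ K, k • v = v) → v = 0) {cs a b : List ℕ} {u v u' v' : List Bool}
    (hc : nsChk n cs a b u v u' v' = true) : Z0 n W cs := fun w hw =>
  h _ (not_solv hc) w fun _ => smul_eq_of_mem hw

theorem z0_conj {cs cs' : List ℕ} {s : ℕ} (h : Z0 n W cs) (hc : (isP n s && cs.all fun c =>
    isP n c && cs'.any fun d => isP n d && weq n [d, s] [s, c]) = true) : Z0 n W cs' :=
  fun w hw => by
    simp only [Bool.and_eq_true, List.all_eq_true, List.any_eq_true] at hc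
    refine (smul_eq_zero_iff_eq (pm n s)⁻¹).1 (h _ fun c h1 => ?_)
    obtain ⟨h2, d, h3, h4, h5⟩ := hc.2 c h1
    have e := (pw_eq_iff (List.forall_mem_cons.2 ⟨bij_of h4, List.forall_mem_singleton.2
      (bij_of hc.1)⟩) (List.forall_mem_cons.2 ⟨bij_of hc.1, List.forall_mem_singleton.2
      (bij_of h2)⟩)).2 h5
    simp only [pw, List.map_cons, List.map_nil, List.prod_cons, List.prod_nil, mul_one] at e
    rw [← mul_smul, show pm n c * (pm n s)⁻¹ = (pm n s)⁻¹ * pm n d by
      rw [mul_inv_eq_iff_eq_mul, mul_assoc, e, inv_mul_cancel_left], mul_smul, hw d h3]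

section Two

omit [NeZero n] [DistribMulAction (Perm (Fin n)) W]

noncomputable def lin (B : ℕ → W) (x : ℕ) : W := ∑ᶠ i, if x.testBit i then B i else 0

variable (B : ℕ → W)

theorem lin_fin (x : ℕ) : (support fun i => if x.testBit i then B i else 0).Finite :=
  (Set.finite_lt_nat x).subset fun i hi => by
    by_contra h
    exact hi (if_neg (by
      rw [Nat.testBit_lt_two_pow ((not_lt.1 h).trans_lt Nat.lt_two_pow_self)]; simp))

theorem lin_zero : lin B 0 = 0 := by simp [lin]

theorem lin_pow (i : ℕ) : lin B (2 ^ i) = B i := by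
  rw [lin, finsum_eq_single _ i fun j hj => by simp [Nat.testBit_two_pow_of_ne hj.symm]]
  simp

variable (h2 : ∀ v : W, v + v = 0)
include h2

theorem lin_xor (x y : ℕ) : lin B (x ^^^ y) = lin B x + lin B y := by
  rw [lin, lin, lin, ← finsum_add_distrib (lin_fin B x) (lin_fin B y)]
  refine finsum_congr fun i => ?_
  rw [Nat.testBit_xor]
  cases x.testBit i <;> cases y.testBit i <;> simp [h2]

omit h2 in
theorem app_spec {D T : ℕ} {σ : W →+ W} (h : ∀ i < D, σ (B i) = B (get T i)) {k : List ℕ → ℕ}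
    (x acc : List ℕ) (h0 : app D T k x acc ≠ 0) : ∃ y, app D T k x acc = k y ∧
      (y.map B).sum = σ (x.map B).sum + (acc.map B).sum := by
  induction x generalizing acc with
  | nil => exact ⟨acc, rfl, by simp⟩
  | cons i x ih =>
    simp only [app, force_eq] at h0 ⊢
    split_ifs at h0 ⊢ with h1
    · obtain ⟨y, h3, h4⟩ := ih _ h0
      refine ⟨y, h3, ?_⟩
      simp only [h4, List.map_cons, List.sum_cons, map_add, h i h1]
      abel
    · exact absurd rfl h0

theorem bits_spec (l : List ℕ) (acc : ℕ) : lin B (bits l acc) = (l.map B).sum + lin B acc := by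
  induction l generalizing acc with
  | nil => simp [bits]
  | cons i l ih =>
    simp only [bits, force_eq, ih, lin_xor B h2, lin_pow, List.map_cons, List.sum_cons]
    abel

theorem comb_spec {Z : List ℕ} (h : ∀ z ∈ Z, lin B z = 0) (m acc : ℕ) :
    lin B (comb Z m acc) = lin B acc := by
  induction Z generalizing m acc with
  | nil => rfl
  | cons z Z ih =>
    simp only [comb, force_eq]
    rw [ih fun y hy => h y (List.mem_cons_of_mem _ hy)]
    split_ifs
    · rw [lin_xor B h2, h z List.mem_cons_self, add_zero]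
    · rfl

end Two

variable (B : ℕ → W) (h2 : ∀ v : W, v + v = 0) {D : ℕ} {Ts : List (ℕ × ℕ × ℕ)}
  {R : List (List ℕ)} (hT : ∀ t ∈ Ts, ∀ i < D, pm n t.1 • B i = B (get t.2.1 i))
  (hR : ∀ r ∈ R, Z0 n W r)
include h2 hT

omit h2 in
theorem app_tb {t : ℕ} (ht : t < Ts.length) {k : List ℕ → ℕ} (x : List ℕ)
    (h0 : app D (tb Ts t).2.1 k x [] ≠ 0) : ∃ y, app D (tb Ts t).2.1 k x [] = k y ∧
      (y.map B).sum = pm n (tb Ts t).1 • (x.map B).sum := by
  simpa using app_spec B (σ := DistribSMul.toAddMonoidHom W (pm n (tb Ts t).1))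
    (hT (tb Ts t) (by rw [tb, List.getD_eq_getElem _ _ ht]; exact List.getElem_mem _)) x [] h0

include hR

theorem step_spec {Z : List (List ℕ)} {Y : List ℕ} (h : ∀ z ∈ Z, (z.map B).sum = 0)
    (h' : ∀ y ∈ Y, lin B y = 0) {k : List ℕ → ℕ} (s : Step) (h0 : step D Ts R Z Y k s ≠ 0) :
    ∃ z, step D Ts R Z Y k s = k z ∧ (z.map B).sum = 0 := by
  rcases s with ⟨t, j⟩ | ⟨x, l⟩ <;> simp only [step] at h0 ⊢ <;> split_ifs at h0 ⊢ with ht
  · obtain ⟨y, h1, h3⟩ := app_tb B hT ht _ h0
    refine ⟨y, h1, h3.trans ?_⟩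
    by_cases hj : j < Z.length
    · rw [List.getD_eq_getElem _ _ hj, h _ (List.getElem_mem _), smul_zero]
    · rw [List.getD_eq_default _ _ (not_lt.1 hj)]
      exact smul_zero _
  · exact absurd rfl h0
  · refine ⟨x, rfl, hR _ ht.1 _ fun c hc => ?_⟩
    obtain ⟨a, ha, rfl⟩ := List.mem_map.1 hc
    obtain ⟨y, h1, h3⟩ := app_tb B hT (ht.2 a ha).1 _ (ht.2 a ha).2
    have h4 := (ht.2 a ha).2
    rw [h1] at h4
    have h5 := congrArg (lin B) (by_contra fun e => h4 (if_neg e))
    rw [bits_spec B h2, bits_spec B h2, comb_spec B h2 h', lin_zero, add_zero, h3] at h5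
    exact add_right_cancel (h5.trans (h2 _).symm)
  · exact absurd rfl h0

theorem run_spec (m : ℕ) (l : List Step) {Z : List (List ℕ)} {Y : List ℕ}
    (h : ∀ z ∈ Z, (z.map B).sum = 0) (h' : ∀ y ∈ Y, lin B y = 0) :
    lin B (run D Ts R m l Z Y) = 0 := by
  induction l generalizing Z Y with
  | nil => exact (comb_spec B h2 h' m 0).trans (lin_zero B)
  | cons s l ih =>
    by_cases h0 : run D Ts R m (s :: l) Z Y = 0
    · rw [h0, lin_zero]
    obtain ⟨z, h1, h3⟩ := step_spec B h2 hT hR h h' s h0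
    rw [run, h1, force_eq]
    exact ih (List.forall_mem_cons.2 ⟨h3, h⟩) (List.forall_mem_cons.2
      ⟨by rw [bits_spec B h2, h3, lin_zero, add_zero], h'⟩)

omit hT in
theorem z0_of_run {gs : List ℕ} {G H M hh m : ℕ} {l : List Step} (h1 : hChk n gs H M hh = true)
    (h3 : weq n [getc G 0] [] = true) (h4 : ∀ t ∈ Ts, tChk n G D H M t = true)
    (h5 : run D Ts R m l [] [] = 1) : Z0 n W gs := fun w hw => by
  have := run_spec (fun i => act n (getc G i) w) h2
    (fun t ht i hi => tChk_spec h1 hw (h4 t ht) hi) hR m l (Z := []) (Y := []) (by simp) (by simp)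
  rwa [h5, ← pow_zero 2, lin_pow, act_zero h3] at this

end CfsgLib.AltM
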