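import Mathlib

/-! Permutations coded by natural numbers; perfect subgroups given by words. -/

set_option autoImplicit false

namespace CfsgLib.AltM

open Equiv Function

def dig (n c i : ℕ) : ℕ := (c >>> (4 * i)) % 16 % n

def ev (n : ℕ) : List ℕ → ℕ → ℕ
  | [], i => i
  | c :: w, i => dig n c (ev n w i)

def weq (n : ℕ) (u v : List ℕ) : Bool := (List.range n).all fun i => ev n u i == ev n v i

def isP (n c : ℕ) : Bool := (List.range n).all fun j => (List.range n).any fun i => dig n c i == j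

def sub (a b : List ℕ) (u : List Bool) : List ℕ := u.flatMap fun x => if x then a else b

/-- certificate that the letters `cs` generate a nonsolvable group -/
def nsChk (n : ℕ) (cs a b : List ℕ) (u v u' v' : List Bool) : Bool :=
  cs.all (isP n) && a.all (· ∈ cs) && b.all (· ∈ cs) && !weq n a [] &&
    weq n (a ++ sub a b v ++ sub a b u) (sub a b u ++ sub a b v) &&
    weq n (b ++ sub a b v' ++ sub a b u') (sub a b u' ++ sub a b v')

variable (n : ℕ) [NeZero n]

def tf (c : ℕ) (i : Fin n) : Fin n := ⟨dig n c i, Nat.mod_lt _ (NeZero.pos n)⟩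

open Classical in
noncomputable def pm (c : ℕ) : Perm (Fin n) :=
  if h : Bijective (tf n c) then Equiv.ofBijective _ h else 1

noncomputable def pw (w : List ℕ) : Perm (Fin n) := (w.map (pm n)).prod

def tw (w : List ℕ) : Fin n → Fin n := w.foldr (fun c f => tf n c ∘ f) id

variable {n}

theorem pm_apply {c : ℕ} (h : Bijective (tf n c)) (i : Fin n) : pm n c i = tf n c i := by
  rw [pm, dif_pos h]
  rfl

theorem tw_val (w : List ℕ) (i : Fin n) : (tw n w i : ℕ) = ev n w i := by
  induction w with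
  | nil => rfl
  | cons c w ih => simp only [tw, List.foldr_cons, comp, ev] at ih ⊢; rw [← ih]; rfl

theorem tw_eq {u v : List ℕ} : weq n u v = true ↔ tw n u = tw n v := by
  simp only [weq, List.all_eq_true, List.mem_range, beq_iff_eq]
  exact ⟨fun h => funext fun i => Fin.ext (by rw [tw_val, tw_val]; exact h i i.2),
    fun h i hi => by rw [← tw_val u ⟨i, hi⟩, h, tw_val]⟩

theorem bij_of {c : ℕ} (h : isP n c = true) : Bijective (tf n c) := by
  simp only [isP, List.all_eq_true, List.any_eq_true, List.mem_range, beq_iff_eq] at h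
  exact Finite.surjective_iff_bijective.1 fun j =>
    let ⟨i, hi, e⟩ := h j j.2
    ⟨⟨i, hi⟩, Fin.ext e⟩

theorem pw_cons (c : ℕ) (w : List ℕ) : pw n (c :: w) = pm n c * pw n w := by simp [pw]

theorem pw_append (u v : List ℕ) : pw n (u ++ v) = pw n u * pw n v := by simp [pw]

theorem pw_apply {w : List ℕ} (h : ∀ c ∈ w, Bijective (tf n c)) (i : Fin n) :
    pw n w i = tw n w i := by
  induction w with
  | nil => rfl
  | cons c w ih =>
    rw [pw_cons, Perm.mul_apply, ih fun d hd => h d (List.mem_cons_of_mem _ hd),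
      pm_apply (h c List.mem_cons_self)]
    rfl

theorem pw_eq_iff {u v : List ℕ} (hu : ∀ c ∈ u, Bijective (tf n c))
    (hv : ∀ c ∈ v, Bijective (tf n c)) : pw n u = pw n v ↔ weq n u v = true := by
  rw [tw_eq]
  exact ⟨fun h => funext fun i => by rw [← pw_apply hu, h, pw_apply hv],
    fun h => Equiv.ext fun i => by rw [pw_apply hu, h, pw_apply hv]⟩

theorem pw_mem {K : Subgroup (Perm (Fin n))} {w : List ℕ} (h : ∀ c ∈ w, pm n c ∈ K) :
    pw n w ∈ K :=
  K.list_prod_mem fun _ hx => let ⟨c, hc, e⟩ := List.mem_map.1 hx; e ▸ h c hc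

theorem mem_sub {a b : List ℕ} {u : List Bool} {c : ℕ} (h : c ∈ sub a b u) : c ∈ a ∨ c ∈ b := by
  obtain ⟨x, -, hx⟩ := List.mem_flatMap.1 h
  cases x
  · exact Or.inr hx
  · exact Or.inl hx

theorem pw_sub_mem {K : Subgroup (Perm (Fin n))} {a b : List ℕ} (ha : pw n a ∈ K)
    (hb : pw n b ∈ K) (u : List Bool) : pw n (sub a b u) ∈ K := by
  induction u with
  | nil => exact K.one_mem
  | cons x u ih =>
    rw [sub, List.flatMap_cons, pw_append]
    refine K.mul_mem ?_ ih
    cases x
    · exact hb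
    · exact ha

/-- the subgroup generated by the letters `cs` -/
def gp (n : ℕ) [NeZero n] (cs : List ℕ) : Subgroup (Perm (Fin n)) :=
  Subgroup.closure {g | ∃ c ∈ cs, pm n c = g}

theorem mem_gp {cs : List ℕ} {c : ℕ} (h : c ∈ cs) : pm n c ∈ gp n cs :=
  Subgroup.subset_closure ⟨c, h, rfl⟩

theorem gp_le {cs : List ℕ} {K : Subgroup (Perm (Fin n))} (h : ∀ c ∈ cs, pm n c ∈ K) :
    gp n cs ≤ K :=
  (Subgroup.closure_le _).2 fun _ ⟨c, hc, e⟩ => e ▸ h c hc

theorem not_solv_of_le {G : Type*} [Group G] {K L : Subgroup G} (h : K ≤ L) (h0 : K ≠ ⊥)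
    (h1 : K ≤ ⁅K, K⁆) : ¬ Group.IsSolvable L := fun hs => by
  have h2 : K.subgroupOf L ≠ ⊥ := fun e => h0 (by
    rw [← Subgroup.map_subgroupOf_eq_of_le h, e, Subgroup.map_bot])
  refine (Group.IsSolvable.commutator_lt_of_ne_bot h2).not_ge fun x hx => ?_
  have h3 := h1 hx
  rw [← Subgroup.map_subgroupOf_eq_of_le h, ← Subgroup.map_commutator] at h3
  obtain ⟨y, hy, e⟩ := h3
  exact Subtype.ext e ▸ hy

theorem not_solv {cs a b : List ℕ} {u v u' v' : List Bool}
    (h : nsChk n cs a b u v u' v' = true) : ¬ Group.IsSolvable (gp n cs) := by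
  simp only [nsChk, Bool.and_eq_true, List.all_eq_true, decide_eq_true_eq, Bool.not_eq_true'] at h
  obtain ⟨⟨⟨⟨⟨h1, h2⟩, h3⟩, h4⟩, h5⟩, h6⟩ := h
  have ha : ∀ c ∈ a, Bijective (tf n c) := fun c hc => bij_of (h1 c (h2 c hc))
  have hb : ∀ c ∈ b, Bijective (tf n c) := fun c hc => bij_of (h1 c (h3 c hc))
  have hs : ∀ u, ∀ c ∈ sub a b u, Bijective (tf n c) := fun u c hc =>
    (mem_sub hc).elim (ha c) (hb c)
  have hap : ∀ {x y : List ℕ}, (∀ c ∈ x, Bijective (tf n c)) → (∀ c ∈ y, Bijective (tf n c)) →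
      ∀ c ∈ x ++ y, Bijective (tf n c) := fun hx hy c hc =>
    (List.mem_append.1 hc).elim (hx c) (hy c)
  set K := Subgroup.closure {pw n a, pw n b}
  have ka : pw n a ∈ K := Subgroup.subset_closure (by simp)
  have kb : pw n b ∈ K := Subgroup.subset_closure (by simp)
  have key : ∀ x u v, (∀ c ∈ x, Bijective (tf n c)) →
      weq n (x ++ sub a b v ++ sub a b u) (sub a b u ++ sub a b v) = true → pw n x ∈ ⁅K, K⁆ :=
    fun x u v hx e => by
      have := (pw_eq_iff (hap (hap hx (hs v)) (hs u)) (hap (hs u) (hs v))).2 e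
      simp only [pw_append] at this
      have h7 := Subgroup.commutator_mem_commutator (pw_sub_mem ka kb u) (pw_sub_mem ka kb v)
      rwa [commutatorElement_def, ← this, mul_inv_cancel_right, mul_inv_cancel_right] at h7
  refine not_solv_of_le (K := K) ((Subgroup.closure_le _).2 ?_) (fun e => ?_)
    ((Subgroup.closure_le _).2 ?_)
  · rintro _ (rfl | rfl)
    · exact pw_mem fun c hc => mem_gp (h2 c hc)
    · exact pw_mem fun c hc => mem_gp (h3 c hc)
  · have := (pw_eq_iff (v := []) ha (by simp)).1 (Subgroup.mem_bot.1 (e.le ka))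
    rw [h4] at this
    exact absurd this (by simp)
  · rintro _ (rfl | rfl)
    · exact key _ _ _ ha h5
    · exact key _ _ _ hb h6

end CfsgLib.AltM
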