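import Cfsg.Agent.Lib.CoprimeAction
import Cfsg.Agent.Lib.CoreElements
import Cfsg.Prelude.Def_LocalEven

/-! Groups with solvable centralizers of non-central `p`-elements: the reduction to modules. -/

set_option autoImplicit false

namespace CfsgLib.AltM

open Equiv Function Subgroup
open scoped commutatorElement

universe u

def Hyp (p : ℕ) (G : Type*) [Group G] : Prop :=
  ∀ x : G, x ∉ center G → (∃ k : ℕ, orderOf x = p ^ k) →
    Group.IsSolvable (centralizer ({x} : Set G))

def Good (n p : ℕ) : Prop :=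
  ∀ (W : Type u) [AddCommGroup W] [Finite W] [DistribMulAction (Perm (Fin n)) W],
    (∀ v : W, p • v = 0) → (∀ K : Subgroup (Perm (Fin n)), ¬ Group.IsSolvable K →
      ∀ v : W, (∀ k ∈ K, k • v = v) → v = 0) → ∀ v : W, v = 0

section
variable {G H : Type*} [Group G] [Group H] {p : ℕ}

theorem solv_of_map {L : Subgroup G} {C : Subgroup H} (f : G →* H) (hf : Injective f)
    (hC : Group.IsSolvable C) (h : ∀ x ∈ L, f x ∈ C) : Group.IsSolvable L :=
  Group.isSolvable_of_isSolvable_injective (f := (f.comp L.subtype).codRestrict C fun x => h x x.2)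
    fun _ _ h => Subtype.ext (hf (congrArg Subtype.val h))

theorem solv_of_comm {L C : Subgroup G} (hC : Group.IsSolvable C) (h : ⁅L, L⁆ ≤ C) :
    Group.IsSolvable L := by
  have : Group.IsSolvable (C.subgroupOf L) :=
    solv_of_map L.subtype L.subtype_injective hC fun _ h => h
  refine Group.isSolvable_of_ker_le_range (C.subgroupOf L).subtype Abelianization.of ?_
  rw [Abelianization.ker_of, range_subtype, subgroupOf, ← map_le_iff_le_comap,
    map_subtype_commutator]
  exact h

theorem comm_le {L : Subgroup G} {x : G} (h : ∀ l ∈ L, ⁅l, x⁆ ∈ center G) :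
    ⁅L, L⁆ ≤ centralizer {x} := by
  have h1 : ∀ l ∈ L, ∀ m ∈ L, l * m * x * (l * m)⁻¹ = ⁅m, x⁆ * ⁅l, x⁆ * x := fun l hl m hm => by
    have := mem_center_iff.1 (h m hm) l
    calc _ = l * ⁅m, x⁆ * x * l⁻¹ := by simp only [commutatorElement_def]; group
      _ = _ := by rw [this]; simp only [commutatorElement_def]; group
  refine commutator_le.2 fun l hl m hm => mem_centralizer_singleton_iff.2 ?_
  have h2 := h1 _ (L.inv_mem hl) _ (L.inv_mem hm)
  rw [mem_center_iff.1 (h _ (L.inv_mem hl)), ← h1 _ (L.inv_mem hm) _ (L.inv_mem hl)] at h2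
  calc _ = l * m * (l⁻¹ * m⁻¹ * x * (l⁻¹ * m⁻¹)⁻¹) * (l⁻¹ * m⁻¹) := by
        simp only [commutatorElement_def]; group
    _ = _ := by rw [h2]; simp only [commutatorElement_def]; group

theorem Hyp.mem_center (h : Hyp p G) {L : Subgroup G} (hL : ¬ Group.IsSolvable L) {x : G}
    (hx : ∃ k : ℕ, orderOf x = p ^ k) (hc : ∀ l ∈ L, ⁅l, x⁆ ∈ center G) : x ∈ center G :=
  by_contra fun h1 => hL (solv_of_comm (h x h1 hx) (comm_le hc))

theorem Hyp.sub (h : Hyp p G) (K : Subgroup G) : Hyp p K := fun x hx hk =>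
  solv_of_map K.subtype K.subtype_injective (h x (fun h1 => hx (mem_center_iff.2 fun g =>
    Subtype.ext (mem_center_iff.1 h1 g))) (by simpa using hk)) fun y hy =>
      mem_centralizer_singleton_iff.2 (congrArg Subtype.val (mem_centralizer_singleton_iff.1 hy))

theorem lift_p [Finite G] (hp : p.Prime) (f : G →* H) (y : G) (h : ∃ k, orderOf (f y) = p ^ k) :
    ∃ x, f x = f y ∧ ∃ k, orderOf x = p ^ k := by
  obtain ⟨u, -, v, hv, h1, -, h2, h3⟩ := exists_p_part hp y
  obtain ⟨k, hk⟩ := h
  have h4 : orderOf (f v) ∣ p ^ k := hk ▸ orderOf_dvd_of_mem_zpowers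
    (by rw [← MonoidHom.map_zpowers]; exact mem_map_of_mem f hv)
  have h5 : f v = 1 := orderOf_eq_one_iff.1 (Nat.Coprime.eq_one_of_dvd
    ((h3.coprime_dvd_left (orderOf_map_dvd f v)).pow_right k) h4)
  exact ⟨u, by rw [h1, map_mul, h5, mul_one], h2⟩

theorem Hyp.quot [Finite G] (h : Hyp p G) (hp : p.Prime) (Q : Subgroup G) [Q.Normal]
    (hQ : p.Coprime (Nat.card Q)) : Hyp p (G ⧸ Q) := fun y hy hk => by
  obtain ⟨y, rfl⟩ := QuotientGroup.mk'_surjective Q y
  obtain ⟨x, h1, k, h2⟩ := lift_p hp _ y hk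
  rw [← h1] at hy ⊢
  have h3 := Cop.centralizer_map_mk' (A := zpowers x) Q (by
    rw [Nat.card_zpowers, h2]; exact hQ.pow_left k) (Or.inl inferInstance)
  rw [MonoidHom.map_zpowers, zpowers_eq_closure, zpowers_eq_closure, centralizer_closure,
    centralizer_closure] at h3
  rw [h3]
  refine Cop.solvable_map (h x (fun h4 => hy (mem_center_iff.2 fun g => ?_)) ⟨k, h2⟩) _
  obtain ⟨g, rfl⟩ := QuotientGroup.mk'_surjective Q g
  rw [← map_mul, mem_center_iff.1 h4, map_mul]

end

theorem reduce {A : Type*} [Group A] {p : ℕ} [hp : Fact p.Prime]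
    (H : ∀ (G : Type u) [Group G] [Finite G], Hyp p G → ∀ f : G →* A, Surjective f →
      IsPGroup p f.ker → False)
    (G : Type u) [Group G] [Finite G] : Hyp p G → ∀ f : G →* A, Surjective f → False := by
  refine card_induction (P := fun G _ _ => Hyp p G → ∀ f : G →* A, Surjective f → False)
    (fun G _ _ ih h f hf => H G h f hf ?_) G
  refine IsPGroup.iff_card.2 ⟨_, Nat.eq_prime_pow_of_unique_prime_dvd Nat.card_pos.ne'
    fun {q} hq hd => by_contra fun hne => ?_⟩
  have := Fact.mk hq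
  obtain ⟨P⟩ : Nonempty (Sylow q f.ker) := inferInstance
  have h1 := P.normalizer_sup_eq_top
  set Q := (P : Subgroup f.ker).map f.ker.subtype with hQ
  have h2 : normalizer (Q : Set G) = ⊤ := by_contra fun h2 => by
    refine ih (normalizer (Q : Set G)) ?_ (h.sub _) (f.comp (Subgroup.subtype _)) fun a => ?_
    · exact (card_le_card_group _).lt_of_ne fun h3 => h2 ((card_eq_iff_eq_top _).1 h3)
    · obtain ⟨g, rfl⟩ := hf a
      obtain ⟨y, hy, z, hz, rfl⟩ := mem_sup_of_normal_right.1 (h1 ▸ mem_top g)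
      exact ⟨⟨y, hy⟩, by simp [show f z = 1 from hz]⟩
  have := normalizer_eq_top_iff.1 h2
  obtain ⟨j, hj⟩ := (P.isPGroup'.map f.ker.subtype).exists_card_eq
  have h3 : Q ≠ ⊥ := mt (map_eq_bot_iff_of_injective _ f.ker.subtype_injective).1
    (P.ne_bot_of_dvd_card hd)
  refine ih (G ⧸ Q) ?_ (h.quot hp.out Q ?_) (QuotientGroup.lift Q f (map_subtype_le _))
    fun a => ?_
  · rw [card_eq_card_quotient_mul_card_subgroup Q]
    exact lt_mul_of_one_lt_right Nat.card_pos ((one_lt_card_iff_ne_bot Q).2 h3)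
  · rw [hj]
    exact ((Nat.coprime_primes hp.out hq).2 (Ne.symm hne)).pow_right j
  · obtain ⟨g, rfl⟩ := hf a
    exact ⟨g, rfl⟩

section
variable {G A : Type*} [Group G] [Group A] [Finite G] {p : ℕ} [hp : Fact p.Prime] (h : Hyp p G)
  {f : G →* A} (hf : Surjective f) {a : A} (ha : a ∉ center A) (hap : a ^ p = 1) {K : Subgroup A}
  (hK : ¬ Group.IsSolvable K) (hc : ∀ k ∈ K, k * a = a * k)
include h hf ha hap hK hc

theorem case_central (hN : f.ker ≤ center G) : False := by
  obtain ⟨y, rfl⟩ := hf a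
  obtain ⟨x, h1, h2⟩ := lift_p hp.out f y ((Nat.dvd_prime_pow hp.out (m := 1)).1
    (by simpa using orderOf_dvd_of_pow_eq_one hap) |>.imp fun _ h => h.2)
  have h3 := h.mem_center (L := K.comap f) (fun h4 => hK (map_comap_eq_self_of_surjective hf K ▸
    Cop.solvable_map h4 f)) h2 fun l hl => hN (by
      rw [MonoidHom.mem_ker, map_commutatorElement, h1, commutatorElement_eq_one_iff_mul_comm]
      exact hc _ hl)
  refine ha (mem_center_iff.2 fun g => ?_)
  obtain ⟨g, rfl⟩ := hf g
  rw [← h1, ← map_mul, mem_center_iff.1 h3, map_mul]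

theorem case_coprime (hN : IsPGroup p f.ker) (hcop : p.Coprime (Nat.card K)) : False := by
  obtain ⟨j, hj⟩ := hN.exists_card_eq
  have hle : f.ker ≤ K.comap f := ker_le_comap f K
  have h0 : (f.ker.subgroupOf (K.comap f)).index = Nat.card K := by
    rw [← relIndex, relIndex_ker, map_comap_eq_self_of_surjective hf]
  obtain ⟨L, hL⟩ := exists_right_complement'_of_coprime (N := f.ker.subgroupOf (K.comap f)) (by
    rw [h0, Nat.card_congr (subgroupOfEquivOfLe hle).toEquiv, hj]
    exact hcop.pow_left j)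
  have h1 : (L.map (K.comap f).subtype).map f = K := le_antisymm
    (map_le_iff_le_comap.2 (map_subtype_le _)) fun k hk => by
      obtain ⟨g, rfl⟩ := hf k
      obtain ⟨⟨c, d⟩, h2⟩ := hL.2 ⟨g, hk⟩
      refine ⟨d, mem_map_of_mem _ d.2, ?_⟩
      rw [← show (c : G) * d = g from congrArg Subtype.val h2, map_mul,
        show f c = 1 from c.2, one_mul]
  have h2 : Nat.card (L.map (K.comap f).subtype) = Nat.card K := by
    rw [card_subtype, ← h0, hL.symm.index_eq_card]
  generalize L.map (K.comap f).subtype = M at h1 h2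
  obtain ⟨y, rfl⟩ := hf a
  obtain ⟨n, hn, x, hx, rfl⟩ := Cop.exists_mul_centralizer_of_commutator_mem (A := M) (N := f.ker)
    (le_normalizer_of_normal) (by rw [h2, hj]; exact (hcop.pow_left j).symm)
    (Or.inr (Cop.solvable_of_isPGroup hN)) (g := y) fun m hm => by
      rw [MonoidHom.mem_ker, map_commutatorElement, commutatorElement_eq_one_iff_mul_comm]
      exact (hc _ (h1 ▸ mem_map_of_mem f hm)).symm
  rw [map_mul, show f n = 1 from hn, one_mul] at ha hap
  obtain ⟨k, hk⟩ := hN ⟨x ^ p, by rwa [MonoidHom.mem_ker, map_pow]⟩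
  have h3 := h.mem_center (L := M) (fun h4 => hK (h1 ▸ Cop.solvable_map h4 f))
    (x := x) ((Nat.dvd_prime_pow hp.out (m := k + 1)).1 (orderOf_dvd_of_pow_eq_one (by
      rw [pow_succ', pow_mul]; exact congrArg Subtype.val hk)) |>.imp fun _ h => h.2)
    fun l hl => by
      rw [commutatorElement_eq_one_iff_mul_comm.2 (hx l hl)]
      exact one_mem _
  refine ha (mem_center_iff.2 fun g => ?_)
  obtain ⟨g, rfl⟩ := hf g
  rw [← map_mul, mem_center_iff.1 h3, map_mul]

end

theorem coind {G Q : Type u} [Group G] [Group Q] [Finite Q] {n p : ℕ} (hG : Good.{u} n p)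
    (f : G →* alternatingGroup (Fin n)) (hf : Surjective f) (π : G →* Q) (V : Subgroup Q)
    [hV : V.Normal] (h1 : ∀ v ∈ V, v ^ p = 1) (h2 : ∀ v ∈ V, ∀ w ∈ V, v * w = w * v)
    (h3 : ∀ g, f g = 1 → ∀ v ∈ V, π g * v = v * π g)
    (h4 : ∀ L : Subgroup G, ¬ Group.IsSolvable L → ∀ v ∈ V, (∀ l ∈ L, π l * v = v * π l) → v = 1) :
    V = ⊥ := by
  classical
  let W : Subgroup (Perm (Fin n) → Q) :=
    { carrier := {φ | (∀ x, φ x ∈ V) ∧ ∀ g x, φ (f g * x) = π g * φ x * (π g)⁻¹}
      mul_mem' := fun {a b} ha hb => ⟨fun x => V.mul_mem (ha.1 x) (hb.1 x), fun g x => by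
        simp only [Pi.mul_apply, ha.2, hb.2]; group⟩
      one_mem' := ⟨fun _ => V.one_mem, fun g x => by simp⟩
      inv_mem' := fun {a} ha => ⟨fun x => V.inv_mem (ha.1 x), fun g x => by
        simp only [Pi.inv_apply, ha.2]; group⟩ }
  let _ : AddCommGroup (Additive W) := { (inferInstance : AddGroup (Additive W)) with
    add_comm := fun a b => Subtype.ext (funext fun x => h2 _ (a.toMul.2.1 x) _ (b.toMul.2.1 x)) }
  let _ : DistribMulAction (Perm (Fin n)) (Additive W) :=
    { smul := fun g φ => Additive.ofMul ⟨fun x => φ.toMul.1 (x * g), fun x => φ.toMul.2.1 _,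
        fun k x => (congrArg φ.toMul.1 (mul_assoc _ x g)).trans (φ.toMul.2.2 k _)⟩
      one_smul := fun φ => Subtype.ext (funext fun x => congrArg φ.toMul.1 (mul_one x))
      mul_smul := fun g k φ => Subtype.ext (funext fun x => congrArg φ.toMul.1
        (mul_assoc x g k).symm)
      smul_zero := fun _ => rfl
      smul_add := fun _ _ _ => rfl }
  have key := hG (Additive W) (fun φ => Subtype.ext (funext fun x => h1 _ (φ.toMul.2.1 x)))
    fun K hK φ hφ => Subtype.ext (funext fun x => by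
      let ψ := (MulAut.conj x⁻¹).toMonoidHom.comp ((alternatingGroup _).subtype.comp f)
      refine h4 (K.comap ψ) (fun h5 => hK (solv_of_comm (Cop.solvable_map h5 ψ) fun k hk => ?_))
        _ (φ.toMul.2.1 x) fun l hl => ?_
      · obtain ⟨g, hg⟩ := hf ⟨x * k * x⁻¹, (alternatingGroup.normal).conj_mem _
          (alternatingGroup.commutator_perm_le (commutator_mono le_top le_top hk)) x⟩
        have : ψ g = k := by simp [ψ, hg, mul_assoc]
        exact ⟨g, by rw [SetLike.mem_coe, mem_comap, this]; exact commutator_le_self K hk, this⟩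
      · have h6 : φ.toMul.1 (x * ψ l) = φ.toMul.1 x :=
          congrFun (congrArg Subtype.val (hφ _ hl)) x
        rw [show x * ψ l = f l * x by simp [ψ, mul_assoc], φ.toMul.2.2] at h6
        exact mul_inv_eq_iff_eq_mul.1 h6)
  refine eq_bot_iff.2 fun v hv => ?_
  choose s hs using hf
  have h5 : ∀ g k, f g = f k → π g * v * (π g)⁻¹ = π k * v * (π k)⁻¹ := fun g k h => by
    have := h3 (k⁻¹ * g) (by rw [map_mul, h, map_inv, inv_mul_cancel]) v hv
    rw [map_mul, map_inv] at this
    calc _ = π k * ((π k)⁻¹ * π g * v) * (π g)⁻¹ := by group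
      _ = _ := by rw [this]; group
  let φ : W := ⟨fun x => if h : x ∈ alternatingGroup _ then π (s ⟨x, h⟩) * v * (π (s ⟨x, h⟩))⁻¹
    else 1, fun x => by
      beta_reduce
      split_ifs
      exacts [hV.conj_mem v hv _, V.one_mem], fun g x => by
      beta_reduce
      by_cases h : x ∈ alternatingGroup _
      · rw [dif_pos h, dif_pos (mul_mem (f g).2 h), h5 _ (g * s ⟨x, h⟩) (by
          rw [map_mul, hs, hs]; rfl), map_mul]
        group
      · rw [dif_neg h, dif_neg (mt (mul_mem_cancel_left (f g).2).1 h)]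
        group⟩
  have h6 : φ.1 1 = 1 := congrFun (congrArg Subtype.val (key (Additive.ofMul φ))) 1
  simp only [φ, dif_pos (one_mem (alternatingGroup (Fin n)))] at h6
  simpa using h6

theorem case_module {G : Type u} [Group G] [Finite G] {n p : ℕ} [hp : Fact p.Prime]
    (hG : Good.{u} n p) (h : Hyp p G) (f : G →* alternatingGroup (Fin n)) (hf : Surjective f)
    (hN : IsPGroup p f.ker) : f.ker ≤ center G := by
  let π := QuotientGroup.mk' (center G)
  have hM := hN.map π
  have hM' : (f.ker.map π).Normal := Normal.map inferInstance π (QuotientGroup.mk'_surjective _)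
  set M := f.ker.map π with hMd
  let V : Subgroup (G ⧸ center G) :=
    { carrier := {v | v ∈ M ⊓ centralizer M ∧ v ^ p = 1}
      mul_mem' := fun {a b} ha hb => ⟨mul_mem ha.1 hb.1, by
        rw [Commute.mul_pow (hb.1.2 a ha.1.1), ha.2, hb.2, mul_one]⟩
      one_mem' := ⟨one_mem _, one_pow _⟩
      inv_mem' := fun {a} ha => ⟨inv_mem ha.1, by rw [inv_pow, ha.2, inv_one]⟩ }
  have : V.Normal := ⟨fun v hv g => ⟨Normal.conj_mem inferInstance v hv.1 g, by
    rw [conj_pow, hv.2, mul_one, mul_inv_cancel]⟩⟩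
  have h1 := coind hG f hf π V (fun v hv => hv.2) (fun v hv w hw => hw.1.2 v hv.1.1)
    (fun g hg v hv => hv.1.2 _ (mem_map_of_mem π hg)) fun L hL v hv hc => by
      obtain ⟨x, hx, rfl⟩ := hv.1.1
      obtain ⟨k, hk⟩ := hN ⟨x, hx⟩
      refine (QuotientGroup.eq_one_iff x).2 (h.mem_center hL ((Nat.dvd_prime_pow hp.out).1
        (orderOf_dvd_of_pow_eq_one (congrArg Subtype.val hk)) |>.imp fun _ h => h.2) fun l hl => ?_)
      rw [← QuotientGroup.eq_one_iff]
      change π _ = 1
      rw [map_commutatorElement, commutatorElement_eq_one_iff_mul_comm]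
      exact hc l hl
  rw [← QuotientGroup.ker_mk' (center G), ← Subgroup.map_eq_bot_iff]
  by_contra h2
  have := (nontrivial_iff_ne_bot M).2 h2
  have := hM.center_nontrivial
  obtain ⟨j, hj, h3⟩ := (hM.to_subgroup (center M)).nontrivial_iff_card.1 this
  obtain ⟨z, hz⟩ := exists_prime_orderOf_dvd_card' (G := center M) p
    (h3 ▸ dvd_pow_self p hj.ne')
  have h4 : (z : G ⧸ center G) ∈ V := ⟨⟨z.1.2, fun m hm =>
    congrArg Subtype.val (mem_center_iff.1 z.2 ⟨m, hm⟩)⟩,
    congrArg (fun w : center M => (w : G ⧸ center G)) (hz ▸ pow_orderOf_eq_one z :)⟩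
  rw [h1, mem_bot, OneMemClass.coe_eq_one, OneMemClass.coe_eq_one] at h4
  rw [h4, orderOf_one] at hz
  exact hp.out.ne_one hz.symm

/-- the product of two symmetric groups inside a symmetric group -/
def emb (m e : ℕ) : Perm (Fin m) × Perm (Fin e) →* Perm (Fin (m + e)) :=
  finSumFinEquiv.permCongrHom.toMonoidHom.comp (Perm.sumCongrHom _ _)

theorem emb_inj (m e : ℕ) : Injective (emb m e) :=
  finSumFinEquiv.permCongrHom.injective.comp Perm.sumCongrHom_injective

theorem sign_emb {m e : ℕ} (a : Perm (Fin m)) (b : Perm (Fin e)) :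
    Perm.sign (emb m e (a, b)) = Perm.sign a * Perm.sign b :=
  (Perm.sign_permCongr _ _).trans (Perm.sign_sumCongr a b)

theorem exists_pair {m p : ℕ} (c : Perm (Fin m)) (h1 : c ≠ 1) (h2 : Perm.sign c = 1)
    (h3 : c ^ p = 1) : ∃ (a : alternatingGroup (Fin (m + 5))) (K : Subgroup _), a ∉ center _ ∧
      a ^ p = 1 ∧ ¬ Group.IsSolvable K ∧ (∀ k ∈ K, k * a = a * k) ∧ Nat.card K = 60 := by
  let ψ : alternatingGroup (Fin 5) →* alternatingGroup (Fin (m + 5)) :=
    ((emb m 5).comp ((MonoidHom.inr _ _).comp (alternatingGroup _).subtype)).codRestrict _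
      fun x => Perm.mem_alternatingGroup.2 ((sign_emb 1 x.1).trans
        (by simpa using Perm.mem_alternatingGroup.1 x.2))
  have hψ : Injective ψ := fun x y h =>
    Subtype.ext (congrArg Prod.snd (emb_inj m 5 (congrArg Subtype.val h)))
  refine ⟨⟨emb m 5 (c, 1), Perm.mem_alternatingGroup.2 (by simp [sign_emb, h2])⟩, ψ.range, ?_, ?_,
    fun h => ?_, ?_, ?_⟩
  · rw [alternatingGroup.center_eq_bot (by simp), mem_bot]
    exact fun h => h1 (congrArg Prod.fst (emb_inj m 5 ((congrArg Subtype.val h).trans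
      (map_one _).symm)))
  · refine Subtype.ext ?_
    change emb m 5 _ ^ p = 1
    rw [← map_pow, Prod.pow_mk, h3, one_pow]
    exact map_one _
  · have := Group.isSolvable_of_isSolvable_injective (f := ψ.rangeRestrict)
      fun x y h => hψ (congrArg Subtype.val h)
    have := solv_of_comm this alternatingGroup.commutator_perm_le
    exact Perm.not_isSolvable_fin_5 (Group.isSolvable_of_surjective (f := (⊤ : Subgroup _).subtype)
      fun x => ⟨⟨x, trivial⟩, rfl⟩)
  · rintro _ ⟨k, rfl⟩
    refine Subtype.ext ?_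
    change emb m 5 (1, k) * emb m 5 _ = emb m 5 _ * emb m 5 (1, k)
    rw [← map_mul, ← map_mul]
    simp
  · rw [← Nat.card_congr (ψ.ofInjective hψ).toEquiv, nat_card_alternatingGroup]
    simp [Nat.factorial]

theorem exists_surj {G : Type*} [Group G] {m d : ℕ} (hd : m ≤ d)
    (h : Cfsg.Involves (alternatingGroup (Fin d)) G) :
    ∃ (K : Subgroup G) (L : Subgroup K) (f : L →* alternatingGroup (Fin m)), Surjective f := by
  obtain ⟨e, rfl⟩ := Nat.exists_eq_add_of_le hd
  obtain ⟨K, R, _, ⟨φ⟩⟩ := h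
  let ψ : alternatingGroup (Fin m) →* alternatingGroup (Fin (m + e)) :=
    ((emb m e).comp ((MonoidHom.inl _ _).comp (alternatingGroup _).subtype)).codRestrict _
      fun x => Perm.mem_alternatingGroup.2 ((sign_emb x.1 1).trans
        (by simpa using Perm.mem_alternatingGroup.1 x.2))
  have hψ : Injective ψ := fun x y h =>
    Subtype.ext (congrArg Prod.fst (emb_inj m e (congrArg Subtype.val h)))
  let f := φ.toMonoidHom.comp (QuotientGroup.mk' _)
  exact ⟨K, ψ.range.comap f, (ψ.ofInjective hψ).symm.toMonoidHom.comp (f.subgroupComap _),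
    (ψ.ofInjective hψ).symm.surjective.comp (f.subgroupComap_surjective_of_surjective _
      (φ.surjective.comp (QuotientGroup.mk'_surjective _)))⟩

theorem main (g2 : Good.{u} 9 2) (g5 : Good.{u} 10 5) {G : Type u} [Group G] [Finite G] (p : ℕ)
    [hp : Fact p.Prime] (hp3 : p ≠ 3) (h : Hyp p G) (d : ℕ)
    (hinv : Cfsg.Involves (alternatingGroup (Fin d)) G) :
    d ≤ p + 4 + (if p = 2 then 2 else 0) := by
  by_contra hd
  by_cases h2 : p = 2
  · subst h2
    obtain ⟨K, L, f, hf⟩ := exists_surj (m := 4 + 5) (by simp at hd; omega) hinv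
    obtain ⟨a, K, h1, h2, h3, h4, -⟩ := exists_pair (m := 4) (p := 2) (swap 0 1 * swap 2 3)
      (by decide) (by decide) (by decide)
    exact reduce (fun G _ _ h f hf hN => case_central h hf h1 h2 h3 h4 (case_module g2 h f hf hN))
      L ((h.sub _).sub _) f hf
  obtain ⟨K, L, f, hf⟩ := exists_surj (m := p + 5) (by simp [h2] at hd; omega) hinv
  obtain ⟨c, hc⟩ := exists_prime_orderOf_dvd_card' (G := Perm (Fin p)) p (by
    rw [Nat.card_perm, Nat.card_eq_fintype_card, Fintype.card_fin]
    exact Nat.dvd_factorial hp.out.pos le_rfl)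
  have h0 : c ^ p = 1 := orderOf_dvd_iff_pow_eq_one.1 hc.dvd
  obtain ⟨a, K, h1, h2', h3, h4, h5⟩ := exists_pair (p := p) c (fun h => hp.out.ne_one
    (by rw [← hc, h, orderOf_one])) (by
      have := congrArg Perm.sign h0
      rwa [map_pow, map_one, Int.units_pow_eq_pow_mod_two, Nat.odd_iff.1 (hp.out.odd_of_ne_two h2),
        pow_one] at this) h0
  refine reduce (fun G _ _ h f hf hN => ?_) L ((h.sub _).sub _) f hf
  by_cases h6 : p = 5
  · subst h6
    exact case_central h hf h1 h2' h3 h4 (case_module g5 h f hf hN)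
  · refine case_coprime h hf h1 h2' h3 h4 hN (h5 ▸ (Nat.Prime.coprime_iff_not_dvd hp.out).2 ?_)
    rw [show 60 = 2 ^ 2 * 3 * 5 from rfl, hp.out.dvd_mul, hp.out.dvd_mul]
    rintro ((h | h) | h)
    · exact h2 ((Nat.prime_dvd_prime_iff_eq hp.out Nat.prime_two).1 (hp.out.dvd_of_dvd_pow h))
    · exact hp3 ((Nat.prime_dvd_prime_iff_eq hp.out Nat.prime_three).1 h)
    · exact h6 ((Nat.prime_dvd_prime_iff_eq hp.out Nat.prime_five).1 h)

end CfsgLib.AltM
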